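import Cfsg.Agent.H75.Lower
import Cfsg.Agent.H75.Geo
import Cfsg.Agent.LieClassical.OrthFinite

/-!
# S5719: the minimal index of `Ω` in dimension at least six (helper178)

`mi` : `Q` nondegenerate on a space of dimension `n ≥ 6` over a finite field of odd order `q`: a subgroup of `GL(V)`
which does not contain `E Q` has (relative) index at least `(q - 1) q ^ (n - 4)` in `E Q`.

The group `rad Q e` of the Siegel elements at `e` has a nontrivial character in the permutation module, with it its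
whole orbit under the stabiliser of the line of `e`.
-/

set_option autoImplicit false

namespace Cfsg.Agent.H178.IFO

open QuadraticMap Cfsg.Agent.LieClassical.OrthCore Cfsg.Agent.LieClassical.OrthTrans Cfsg.Agent.H75.OrthIdx

variable {F V : Type*} [Field F] [AddCommGroup V] [Module F V] {Q : QuadraticForm F V} [Finite F]
  [FiniteDimensional F V]

theorem exists_vecSet_lt (hG : Good Q) (hd : 6 ≤ Module.finrank F V) {e f : V} (h : Hyp Q e f)
    {H : Subgroup (V ≃ₗ[F] V)} (hrad : ¬ rad Q e ≤ H) :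
    ∃ v, polar Q e v = 0 ∧ v ∉ Submodule.span F {e} ∧
      (VecSet Q e v).ncard < Nat.card F * H.relIndex (E Q) := by
  classical
  have : Finite V := Module.finite_of_finite F
  obtain ⟨p, hp, θ, -, hθ, hcard, -⟩ := exists_dual hG.nondeg
  set B := Bs Q H e with hB
  set S := dl Q θ B with hS
  have he0 : e ≠ 0 := h.left_ne
  have hq : 0 < Nat.card F := Nat.card_pos
  have h1 := relIndex_rad_mul hG.nondeg he0 H
  have h2 : Nat.card S * Nat.card B = Nat.card V := hcard B
  have hV : Nat.card V = Nat.card F ^ (Module.finrank F V - 1) * Nat.card F := by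
    rw [Module.natCard_eq_pow_finrank (K := F) (V := V), ← pow_succ]
    congr 1
    omega
  have hBpos : 0 < Nat.card B := Nat.card_pos
  have hSr : Nat.card S = Nat.card F * H.relIndex (rad Q e) := by
    apply Nat.eq_of_mul_eq_mul_right hBpos
    rw [h2, hV, ← h1]
    ring
  have hr : 2 ≤ H.relIndex (rad Q e) := by
    have h3 : H.relIndex (rad Q e) ≠ 0 := relIndex_ne _ _
    have h4 : H.relIndex (rad Q e) ≠ 1 := fun h5 => hrad (Subgroup.relIndex_eq_one.1 h5)
    omega
  -- `F e` lies in `B` and in `S`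
  have heB : ∀ c : F, c • e ∈ B := fun c =>
    ⟨by rw [polar_smul_right, polar_self_of_sing h.left, smul_zero], by
      rw [sg_smul_self h.left]; exact H.one_mem⟩
  have hSe : ∀ v ∈ S, polar Q e v = 0 := by
    intro v hv
    by_contra hne
    obtain ⟨c, hc⟩ := hθ _ hne
    apply hc
    have h3 := hv (c • e) (heB c)
    rwa [polar_smul_left, smul_eq_mul] at h3
  have heS : ∀ c : F, c • e ∈ S := by
    intro c v hv
    have h3 : polar Q e v = 0 := hv.1
    rw [polar_smul_right, polar_comm, h3, smul_zero, map_zero]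
  have hspan : Nat.card (Submodule.span F {e}) = Nat.card F := by
    rw [Module.natCard_eq_pow_finrank (K := F) (V := Submodule.span F {e}), finrank_span_singleton he0, pow_one]
  obtain ⟨v, hvS, hvn⟩ : ∃ v ∈ S, v ∉ Submodule.span F {e} := by
    by_contra hcon
    push Not at hcon
    have h3 : (S : Set V).ncard ≤ (Submodule.span F {e} : Set V).ncard :=
      Set.ncard_le_ncard (fun x hx => hcon x hx) (Set.toFinite _)
    have h4 : Nat.card S ≤ Nat.card (Submodule.span F {e}) := h3
    rw [hSr, hspan] at h4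
    nlinarith
  refine ⟨v, hSe v hvS, hvn, ?_⟩
  have h5 := vec_bound hG hd h false (Nst Q H e) S (stab_dl h) hvS (hSe v hvS) hvn
  have h6 : (VecSet Q e v ∩ (S : Set V)).ncard + Nat.card F ≤ Nat.card S := by
    have h7 : Disjoint (VecSet Q e v ∩ (S : Set V)) (Submodule.span F {e} : Set V) := by
      rw [Set.disjoint_left]
      rintro w ⟨⟨-, hli, -⟩, -⟩ hw
      exact notMem_of_li2 hli hw
    have h8 : VecSet Q e v ∩ (S : Set V) ∪ (Submodule.span F {e} : Set V) ⊆ (S : Set V) := by
      rintro w (hw | hw)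
      · exact hw.2
      · obtain ⟨a, rfl⟩ := Submodule.mem_span_singleton.1 hw
        exact heS a
    have h9 := Set.ncard_le_ncard h8 (Set.toFinite _)
    rw [Set.ncard_union_eq h7 (Set.toFinite _) (Set.toFinite _)] at h9
    have h10 : (Submodule.span F {e} : Set V).ncard = Nat.card (Submodule.span F {e}) := rfl
    rw [h10, hspan] at h9
    exact h9
  have h11 := relIndex_ge h.left H
  have hN : 0 < (Nst Q H e).relIndex (Pst Q e) := Nat.pos_of_ne_zero (relIndex_ne _ _)
  rw [hSr] at h6
  calc (VecSet Q e v).ncard ≤ (Nst Q H e).relIndex (Pst Q e) * (VecSet Q e v ∩ (S : Set V)).ncard := h5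
    _ < (Nst Q H e).relIndex (Pst Q e) * (Nat.card F * H.relIndex (rad Q e)) := by
        apply Nat.mul_lt_mul_of_pos_left _ hN
        omega
    _ = Nat.card F * (H.relIndex (rad Q e) * (Nst Q H e).relIndex (Pst Q e)) := by ring
    _ ≤ _ := Nat.mul_le_mul_left _ h11

theorem le_ncard_perp (hG : Good Q) {e f : V} (h : Hyp Q e f) (c : F) :
    (Nat.card F - 1) * Nat.card F ^ (Module.finrank F V - 3) ≤ {w : V | polar Q e w = 0 ∧ Q w = c}.ncard := by
  classical
  have : Finite V := Module.finite_of_finite F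
  obtain ⟨x, y, hxy, hex, hey, -, -⟩ := hG.exists_hyp2 h
  have hli : LinearIndependent F ![e] := by
    rw [linearIndependent_unique_iff]
    exact h.left_ne
  refine (le_ncard_norm hG.nondeg ![e] hli ![0] hxy ?_ ?_ c).trans (Set.ncard_le_ncard ?_ (Set.toFinite _))
  · intro i
    fin_cases i
    exact hex
  · intro i
    fin_cases i
    exact hey
  · rintro w ⟨h1, h2, -⟩
    exact ⟨h1 0, h2⟩


omit [Finite F] [FiniteDimensional F V] in
theorem le_of_rad (hQ : Nondeg Q) {e f : V} (h : Hyp Q e f) {H : Subgroup (V ≃ₗ[F] V)} (he : rad Q e ≤ H)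
    (hf : rad Q f ≤ H) : E Q ≤ H :=
  E_le_of_opp hQ h (fun _ hv => he (sg_mem_rad hv)) (fun _ hv => hf (sg_mem_rad hv))

/-- **MI.** -/
theorem mi (hG : Good Q) (hd : 6 ≤ Module.finrank F V) (h2 : (2 : F) ≠ 0) {H : Subgroup (V ≃ₗ[F] V)}
    (hH : ¬ E Q ≤ H) :
    (Nat.card F - 1) * Nat.card F ^ (Module.finrank F V - 4) ≤ H.relIndex (E Q) := by
  classical
  have : Finite V := Module.finite_of_finite F
  have hq3 : 3 ≤ Nat.card F := by
    have := Fintype.ofFinite F
    have h3 := Finite.one_lt_card (α := F)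
    by_contra hcon
    have h4 : Nat.card F = 2 := by omega
    apply h2
    have h5 : CharP F 2 := by
      have h6 : Fintype.card F = 2 := by rw [← Nat.card_eq_fintype_card, h4]
      obtain ⟨p, hp⟩ := CharP.exists F
      have h7 : p.Prime := CharP.char_is_prime F p
      have : Fact p.Prime := ⟨h7⟩
      obtain ⟨n, hn⟩ := FiniteField.card F p
      rw [h6] at hn
      have h8 : p ∣ 2 := by rw [hn.2]; exact dvd_pow_self p n.ne_zero
      have h9 : p = 2 := (Nat.prime_dvd_prime_iff_eq h7 Nat.prime_two).1 h8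
      rwa [h9] at hp
    exact_mod_cast CharP.cast_eq_zero F 2
  obtain ⟨e, f, h⟩ := hG.exists_hyp
  have key : ∃ e f : V, Hyp Q e f ∧ ¬ rad Q e ≤ H := by
    by_cases he : rad Q e ≤ H
    · refine ⟨f, e, h.symm, fun hf => hH (le_of_rad hG.nondeg h he hf)⟩
    · exact ⟨e, f, h, he⟩
  obtain ⟨e, f, h, hr⟩ := key
  obtain ⟨v, hev, hvn, hlt⟩ := exists_vecSet_lt hG hd h hr
  obtain ⟨q, hq⟩ : ∃ q, q = Nat.card F := ⟨_, rfl⟩
  obtain ⟨k, hk⟩ : ∃ k, Module.finrank F V = k + 6 := ⟨Module.finrank F V - 6, by omega⟩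
  rw [hk, show k + 6 - 4 = k + 2 by omega]
  rw [← hq] at hlt hq3 ⊢
  obtain ⟨r, rfl⟩ : ∃ r, q = r + 3 := ⟨q - 3, by omega⟩
  have hP : 0 < (r + 3) ^ k := by positivity
  by_cases hv : Q v = 0
  · have h3 := ncard_vecSet_sing h.left_ne h.left hv
    have h4 := le_ncard_perp hG h 0
    rw [← h3, ← hq, hk, show k + 6 - 3 = k + 3 by omega] at h4
    have h5 : (r + 3) * ((r + 3 - 1) * (r + 3) ^ (k + 2)) < (r + 3) * (H.relIndex (E Q) + 1) := by
      calc (r + 3) * ((r + 3 - 1) * (r + 3) ^ (k + 2)) = (r + 3 - 1) * (r + 3) ^ (k + 3) := by ring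
        _ ≤ (VecSet Q e v).ncard + (r + 3) := h4
        _ < (r + 3) * H.relIndex (E Q) + (r + 3) := by omega
        _ = (r + 3) * (H.relIndex (E Q) + 1) := by ring
    have h6 := lt_of_mul_lt_mul_left h5 (Nat.zero_le _)
    omega
  · have h3 := mul_le_ncard_vecSet h.left_ne h.left hv (K := (Nat.card F - 1) * Nat.card F ^ (Module.finrank F V - 3))
      (fun c _ => le_ncard_perp hG h c)
    rw [← hq, hk, show k + 6 - 3 = k + 3 by omega, show r + 3 - 1 = r + 2 by omega] at h3
    have h5 : (r + 3) * ((r + 3 - 1) * (r + 3) ^ (k + 2) * 2) < (r + 3) * (H.relIndex (E Q) * 2) := by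
      calc (r + 3) * ((r + 3 - 1) * (r + 3) ^ (k + 2) * 2) = 2 * ((r + 2) * (r + 3) ^ (k + 3)) := by
            rw [show r + 3 - 1 = r + 2 by omega]; ring
        _ ≤ (r + 2) * ((r + 2) * (r + 3) ^ (k + 3)) := Nat.mul_le_mul_right _ (by omega)
        _ ≤ (VecSet Q e v).ncard * 2 := h3
        _ < (r + 3) * H.relIndex (E Q) * 2 := by omega
        _ = (r + 3) * (H.relIndex (E Q) * 2) := by ring
    have h6 := lt_of_mul_lt_mul_left h5 (Nat.zero_le _)
    omega

end Cfsg.Agent.H178.IFO
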